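import Cfsg.Agent.H6.FewA

/-!
# Groups with few Sylow subgroups of prime order: characters
-/

set_option autoImplicit false

namespace Cfsg.Agent.H6

open Finset Subgroup Cfsg.Agent.L0 MulAction
open scoped ComplexConjugate

variable {p : ℕ} {G : Type*} [Group G]

theorem div_cases' {p n f : ℕ} (hp : 1 < p) (hn : 2 * n < p + 3) (h : f ∣ (p - 1) * (n * p + 1))
    {δ : ℤ} (hδ : δ = 1 ∨ δ = -1) (hf : (p : ℤ) ∣ δ * f - 1) :
    (δ = 1 ∧ (f = 1 ∨ f = n * p + 1)) ∨ (δ = -1 ∧ (f = (p - 1) * (n * p + 1) ∨ f = p - 1)) := by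
  obtain ⟨g, hg⟩ := h
  rcases hδ with rfl | rfl
  · exact Or.inl ⟨rfl, div_cases hp hn hg.symm (by simpa using hf)⟩
  · refine Or.inr ⟨rfl, ?_⟩
    have h1 : ((p : ℤ) - 1) * (n * p + 1) = f * g := by
      have := congrArg (Nat.cast : ℕ → ℤ) hg
      push_cast [Nat.cast_sub hp.le] at this
      exact this
    obtain ⟨u, hu⟩ := hf
    rcases div_cases hp hn ((mul_comm _ _).trans hg.symm)
      ⟨-u * g - (n * p + 1 - n), by linear_combination h1 - g * hu⟩ with h2 | h2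
    · left; rw [hg, h2, mul_one]
    · right
      rw [h2] at hg
      exact (Nat.eq_of_mul_eq_mul_right (by omega) hg).symm

/-- The irreducible characters outside the principal block. -/
noncomputable def outBlk (p : ℕ) (G : Type*) [Group G] [Finite G] : Finset (IrrCharacter G) :=
  open Classical in (prinBlk p G)ᶜ

theorem mem_outBlk [Finite G] {χ : IrrCharacter G} : χ ∈ outBlk p G ↔ χ ∉ prinBlk p G := by
  simp [outBlk]

theorem sum_add_sum_outBlk [Finite G] (p : ℕ) {M : Type*} [AddCommMonoid M]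
    (f : IrrCharacter G → M) : ∑ χ ∈ prinBlk p G, f χ + ∑ χ ∈ outBlk p G, f χ = ∑ χ, f χ :=
  open Classical in sum_add_sum_compl _ _

namespace Brauer

variable [hp : Fact p.Prime] [Finite G] {D : Setup p G} (B : Brauer D)

theorem exists_ab : ∃ a b : ℕ, a + b + 1 = Nat.card D.A ∧ ∀ (f : IrrCharacter G → ℤ) (u v : ℤ),
    (∀ χ ∈ B.S, χ ≠ irrOne G → (B.δ χ = 1 → f χ = u) ∧ (B.δ χ = -1 → f χ = v)) →
    ∑ χ ∈ B.S, f χ = f (irrOne G) + a * u + b * v := by
  classical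
  refine ⟨((B.S.erase (irrOne G)).filter fun χ => B.δ χ = 1).card,
    ((B.S.erase (irrOne G)).filter fun χ => ¬ B.δ χ = 1).card, ?_, fun f u v h => ?_⟩
  · rw [card_filter_add_card_filter_not, card_erase_add_one B.one_mem, B.card_S]
  · rw [← add_sum_erase _ _ B.one_mem, ← sum_filter_add_sum_filter_not _ fun χ => B.δ χ = 1,
      sum_congr rfl fun χ hχ => (h χ (mem_of_mem_erase (mem_filter.mp hχ).1)
        (ne_of_mem_erase (mem_filter.mp hχ).1)).1 (mem_filter.mp hχ).2,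
      sum_congr (s₁ := filter (fun χ => ¬ B.δ χ = 1) _) rfl fun χ hχ =>
        (h χ (mem_of_mem_erase (mem_filter.mp hχ).1) (ne_of_mem_erase (mem_filter.mp hχ).1)).2
        ((B.hδ χ (mem_of_mem_erase (mem_filter.mp hχ).1)).resolve_left (mem_filter.mp hχ).2),
      sum_const, sum_const, nsmul_eq_mul, nsmul_eq_mul, add_assoc]

/-- The degrees when there are few Sylow subgroups. -/
structure Few (n : ℕ) : Prop where
  card : Nat.card (Sylow p G) = n * p + 1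
  S : ∀ χ ∈ B.S, χ ≠ irrOne G → (B.δ χ = 1 ∧ deg χ = n * p + 1) ∨ (B.δ χ = -1 ∧ deg χ = p - 1)
  c : (B.δ0 = 1 ∧ D.A.index * B.f0 = n * p + 1) ∨ (B.δ0 = -1 ∧ B.f0 = Nat.card D.A)

theorem few (hG : commutator G = ⊤) {n : ℕ} (hn : Nat.card (Sylow p G) = n * p + 1)
    (hn2 : 2 * n < p + 3) (hsz : Nat.card G < (p - 1) * (Nat.card D.A * (n * p + 1) ^ 2)) :
    B.Few n := by
  have h1 := B.sum_sq_le
  have h2 := D.card_A_mul_index
  have h3 : 0 < D.A.index := Nat.pos_of_ne_zero index_ne_zero_of_finite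
  refine ⟨hn, fun χ hχ hχ1 => ?_, ?_⟩
  · have h4 := two_le_deg hG hχ1
    rcases div_cases' hp.out.one_lt hn2 ((B.deg_dvd_index hχ).trans (by
      rw [hn, mul_comm]; exact Nat.mul_dvd_mul_right D.card_A_dvd _)) (B.hδ χ hχ)
      (B.dvd_deg_sub hχ) with ⟨h5, h6⟩ | ⟨h5, h6⟩
    · exact Or.inl ⟨h5, h6.resolve_left (by omega)⟩
    · refine Or.inr ⟨h5, h6.resolve_left fun h7 => ?_⟩
      have h8 := single_le_sum (f := fun χ => deg χ ^ 2) (fun _ _ => Nat.zero_le _) hχ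
      have h9 : Nat.card D.A ≤ p - 1 := h2 ▸ Nat.le_mul_of_pos_right _ h3
      have h10 := Nat.mul_le_mul_left (p - 1) (Nat.mul_le_mul_right ((n * p + 1) ^ 2) h9)
      simp only [h7] at h8
      nlinarith
  · have h4 := two_le_deg hG (B.c_ne_one 1)
    rw [B.deg_c] at h4
    obtain ⟨u, hu⟩ := B.dvd_f0_add
    have h5 : (Nat.card D.A : ℤ) * D.A.index = p - 1 := by
      have := congrArg (Nat.cast : ℕ → ℤ) h2
      push_cast [Nat.cast_sub hp.out.one_lt.le] at this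
      exact this
    rcases div_cases' (f := D.A.index * B.f0) hp.out.one_lt hn2 (by
      rw [← h2, mul_comm (Nat.card D.A), mul_assoc, mul_comm (Nat.card D.A), ← hn]
      exact Nat.mul_dvd_mul_left _ B.f0_dvd_index) B.hδ0
      ⟨D.A.index * u - 1, by push_cast; linear_combination D.A.index * hu - h5⟩ with
      ⟨h6, h7⟩ | ⟨h6, h7⟩
    · exact Or.inl ⟨h6, h7.resolve_left (by nlinarith)⟩
    · rw [← h2, mul_comm (Nat.card D.A), mul_assoc] at h7
      refine Or.inr ⟨h6, Nat.eq_of_mul_eq_mul_left h3 (h7.resolve_left fun h8 => ?_)⟩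
      rw [Nat.eq_of_mul_eq_mul_left h3 h8] at h1
      rw [← h2] at hsz
      have : D.A.index * (Nat.card D.A * (n * p + 1)) ^ 2 =
        Nat.card D.A * D.A.index * (Nat.card D.A * (n * p + 1) ^ 2) := by ring
      omega

namespace Few

variable {B} {n : ℕ} (h : B.Few n)
include h

theorem exists_ab : ∃ a b : ℕ, a + b + 1 = Nat.card D.A ∧
    1 + a * (n * p + 1) - b * (p - 1) + B.δ0 * B.f0 = (0 : ℤ) ∧
    ∑ χ ∈ B.S, (deg χ : ℤ) ^ 2 = 1 + a * (n * p + 1) ^ 2 + b * (p - 1) ^ 2 := by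
  obtain ⟨a, b, h1, h2⟩ := B.exists_ab
  refine ⟨a, b, h1, ?_, ?_⟩
  · have h3 := B.deg_eqn
    rw [h2 _ (n * p + 1) (-(p - 1)) fun χ hχ h1 => by
      rcases h.S χ hχ h1 with ⟨h2, h3⟩ | ⟨h2, h3⟩ <;>
        simp [h2, h3, Nat.cast_sub hp.out.one_lt.le], B.δ_one, deg_irrOne] at h3
    linear_combination h3
  · rw [h2 _ ((n * p + 1) ^ 2) ((p - 1) ^ 2) fun χ hχ h1 => by
      rcases h.S χ hχ h1 with ⟨h2, h3⟩ | ⟨h2, h3⟩ <;>
        simp [h2, h3, Nat.cast_sub hp.out.one_lt.le], deg_irrOne]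
    simp

theorem numbers : ∃ a : ℕ, (B.δ0 = -1 ∧ Nat.card D.A = a * (n + 1) + 1) ∨
    (B.δ0 = 1 ∧ ∃ k : ℕ, n + 1 = D.A.index * k ∧ Nat.card D.A = a * (n + 1) + k + 1) := by
  obtain ⟨a, b, h1, h2, -⟩ := h.exists_ab
  have hp0 : (p : ℤ) ≠ 0 := Nat.cast_ne_zero.mpr hp.out.ne_zero
  have h1' : (a : ℤ) + b + 1 = Nat.card D.A := by exact_mod_cast h1
  refine ⟨a, ?_⟩
  rcases h.c with ⟨h3, h4⟩ | ⟨h3, h4⟩
  · have h5 : (Nat.card D.A : ℤ) * D.A.index = p - 1 := by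
      have := congrArg (Nat.cast : ℕ → ℤ) D.card_A_mul_index
      push_cast [Nat.cast_sub hp.out.one_lt.le] at this
      exact this
    have h4' : (D.A.index : ℤ) * B.f0 = n * p + 1 := by exact_mod_cast h4
    rw [h3] at h2
    have h6 : (n : ℤ) + 1 = D.A.index * (b - a * n) := mul_left_cancel₀ hp0 (by
      linear_combination D.A.index * h2 - h4' - D.A.index * h1' - h5)
    have h7 : a * n ≤ b := by
      by_contra h7
      have : (b : ℤ) < a * n := by exact_mod_cast not_le.mp h7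
      nlinarith
    refine Or.inr ⟨h3, b - a * n, by exact_mod_cast h6, ?_⟩
    rw [← h1, mul_add]
    omega
  · rw [h3, h4] at h2
    have h6 : (b : ℤ) = a * n := mul_left_cancel₀ hp0 (by linear_combination h1' - h2)
    have h7 : b = a * n := by exact_mod_cast h6
    exact Or.inl ⟨h3, by rw [← h1, h7]; ring⟩

theorem K_eq_bot [IsSimpleGroup G] (hG : commutator G = ⊤) : D.K = ⊥ := by
  by_contra hK
  have h1 : ∀ χ, χ ≠ irrOne G → ¬ D.K ≤ charKer χ.1 := fun χ hχ h1 =>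
    hK (le_bot_iff.mp (ker_eq_bot hχ ▸ h1))
  have hp2 := hp.out.two_le
  have h2 := B.deg_eqn
  have h3 : 0 < ∑ χ ∈ B.S, B.δ χ * deg χ := sum_pos (fun χ hχ => by
    by_cases h3 : χ = irrOne G
    · simp [h3, B.δ_one, deg_irrOne]
    rcases h.S χ hχ h3 with ⟨h4, h5⟩ | ⟨h4, h5⟩
    · rw [h4, h5]; positivity
    · have := (B.stanton_S hG hχ (h1 χ h3)).2 h4
      omega) ⟨_, B.one_mem⟩
  rcases h.c with ⟨h4, h5⟩ | ⟨h4, h5⟩
  · rw [h4] at h2
    omega
  · have := (B.stanton_c hG (h1 _ (B.c_ne_one 1))).2 h4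
    omega

theorem sum_m0_sq (hK : D.K = ⊥) : ∑ χ ∈ outBlk p G, D.m0 χ ^ 2 = n := by
  have h1 := sum_deg_sq (G := G)
  rw [← sum_add_sum_outBlk p, B.sum_blk_deg_sq, D.card_G, h.card, hK, card_bot, mul_one,
    sum_congr (s₁ := outBlk p G) rfl fun χ hχ => by
      rw [D.deg_eq_m0 hK (mem_outBlk.mp hχ), mul_pow], ← mul_sum] at h1
  generalize ∑ χ ∈ outBlk p G, D.m0 χ ^ 2 = s at h1
  obtain ⟨a, b, h2, h3, h4⟩ := h.exists_ab
  have h1' := congrArg (Nat.cast : ℕ → ℤ) h1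
  push_cast at h1'
  rw [h4] at h1'
  have h2' : (a : ℤ) + b + 1 = Nat.card D.A := by exact_mod_cast h2
  have h5 : (Nat.card D.A : ℤ) * D.A.index = p - 1 := by
    have := congrArg (Nat.cast : ℕ → ℤ) D.card_A_mul_index
    push_cast [Nat.cast_sub hp.out.one_lt.le] at this
    exact this
  have hp0 : (p : ℤ) ≠ 0 := Nat.cast_ne_zero.mpr hp.out.ne_zero
  have h6 : (p : ℤ) ^ 2 * s = p ^ 2 * n := by
    rcases h.c with ⟨h6, h7⟩ | ⟨h6, h7⟩
    · have h7' : (D.A.index : ℤ) * B.f0 = n * p + 1 := by exact_mod_cast h7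
      rw [h6] at h3
      have h8 : (n : ℤ) + 1 = D.A.index * (b - a * n) := mul_left_cancel₀ hp0 (by
        linear_combination D.A.index * h3 - h7' - D.A.index * h2' - h5)
      have h9 : (b : ℤ) * (p - 1) = (p - 1) * a * n + Nat.card D.A * (n + 1) := by
        linear_combination -(Nat.card D.A : ℤ) * h8 - (b - a * n) * h5
      linear_combination h1' - (n * p + 1) * h3 - B.f0 * h7' - p * h9 - p * (p - 1) * n * h2'
    · rw [h6, h7] at h3
      rw [h7] at h1'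
      have h8 : (b : ℤ) = a * n := mul_left_cancel₀ hp0 (by linear_combination h2' - h3)
      rw [h8] at h1' h2'
      linear_combination h1' - Nat.card D.A * h5 - (n * p ^ 2 + 1) * h2'
  exact_mod_cast mul_left_cancel₀ (pow_ne_zero 2 hp0) h6

theorem sum_blk {z : G} (hz : ¬ p ∣ orderOf z) (h1 : ∀ ψ ∈ B.S, B.δ ψ = -1 → ψ.1 z = 0)
    (h2 : B.δ0 = -1 → (B.c 1).1 z = 0) : ∑ χ ∈ prinBlk p G, χ.1 1 * χ.1 z = -(n * p) := by
  classical
  have h3 := B.eqn 1 hz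
  rw [← add_sum_erase _ _ B.one_mem, B.δ_one] at h3
  have h4 : ∑ χ ∈ B.S.erase (irrOne G), χ.1 1 * χ.1 z =
      (n * p + 1) * ∑ χ ∈ B.S.erase (irrOne G), B.δ χ * χ.1 z := by
    rw [mul_sum]
    refine sum_congr rfl fun χ hχ => ?_
    rcases h.S χ (mem_of_mem_erase hχ) (ne_of_mem_erase hχ) with ⟨h4, h5⟩ | ⟨h4, h5⟩
    · simp [deg_eq, h4, h5]
    · simp [h1 χ (mem_of_mem_erase hχ) h4]
  have h5 : ∑ q, (B.c q).1 1 * (B.c q).1 z = (n * p + 1) * (B.δ0 * (B.c 1).1 z) := by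
    rw [sum_congr rfl fun q _ => by rw [deg_eq, B.deg_c, B.reg q 1 hz], sum_const, card_univ,
      ← Nat.card_eq_fintype_card, ← index_eq_card, nsmul_eq_mul, ← mul_assoc]
    rcases h.c with ⟨h5, h6⟩ | ⟨h5, h6⟩
    · rw [← Nat.cast_mul, h6, h5]
      simp
    · simp [h2 h5]
  rw [B.sum_blk, ← add_sum_erase _ _ B.one_mem, h4, h5]
  simp only [irrOne_val, Pi.one_apply] at h3 ⊢
  push_cast at h3
  linear_combination (n * p + 1) * h3

theorem sum_compl (hK : D.K = ⊥) {z : G} (hz1 : z ≠ 1) (hz : ¬ p ∣ orderOf z)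
    (h1 : ∀ ψ ∈ B.S, B.δ ψ = -1 → ψ.1 z = 0) (h2 : B.δ0 = -1 → (B.c 1).1 z = 0) :
    ∑ χ ∈ outBlk p G, D.m0 χ * χ.1 z = n := by
  have h3 := sum_irr_degree_mul z
  rw [if_neg hz1, ← sum_add_sum_outBlk p, h.sum_blk hz h1 h2,
    sum_congr (s₁ := outBlk p G) rfl fun χ hχ => by
      rw [deg_eq, D.deg_eq_m0 hK (mem_outBlk.mp hχ), Nat.cast_mul, mul_assoc], ← mul_sum] at h3
  exact mul_left_cancel₀ (p_ne_zero (p := p)) (by linear_combination h3)

theorem vanish_S {y : G} (hy : y ∈ normalizer (zpowers D.x : Set G))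
    (hc : y ∉ centralizer ({D.x} : Set G)) : ∀ ψ ∈ B.S, B.δ ψ = -1 → ψ.1 y = 0 := by
  intro ψ hψ h1
  have h2 := D.norm_le_m0 ψ hy hc
  have h3 := B.m0_S hψ
  rcases h.S ψ hψ (by rintro rfl; rw [B.δ_one] at h1; omega) with ⟨h4, -⟩ | ⟨-, h4⟩
  · omega
  rw [h1, h4, Nat.cast_sub hp.out.one_lt.le] at h3
  have h5 : D.m0 ψ = 0 := by have := hp.out.pos; push_cast at h3; nlinarith
  rwa [h5, Nat.cast_zero, norm_le_zero_iff] at h2

theorem vanish_c {y : G} (hy : y ∈ normalizer (zpowers D.x : Set G))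
    (hc : y ∉ centralizer ({D.x} : Set G)) (h1 : B.δ0 = -1) : (B.c 1).1 y = 0 := by
  have h2 := D.norm_le_m0 (B.c 1) hy hc
  have h3 := B.m0_c 1
  rcases h.c with ⟨h4, -⟩ | ⟨-, h4⟩
  · omega
  rw [h1, h4] at h3
  have h5 : D.m0 (B.c 1) = 0 := by have := hp.out.pos; nlinarith
  rwa [h5, Nat.cast_zero, norm_le_zero_iff] at h2

theorem apply_eq_m0 (hK : D.K = ⊥) {y : G} (hy : y ∈ normalizer (zpowers D.x : Set G))
    (hc : y ∉ zpowers D.x) {θ : IrrCharacter G} (hθ : θ ∉ prinBlk p G) : θ.1 y = D.m0 θ := by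
  classical
  have hc' := D.centralizer_eq_iff.mpr hK ▸ hc
  have h1 := congrArg Complex.re (h.sum_compl hK (fun h => hc (by rw [h]; exact Subgroup.one_mem _))
    (mt (D.mem_of_dvd_orderOf hK hy) hc) (h.vanish_S hy hc') (h.vanish_c hy hc'))
  rw [← h.sum_m0_sq hK, Complex.natCast_re, Complex.re_sum, Nat.cast_sum] at h1
  have h2 : ∀ χ : IrrCharacter G, (χ.1 y).re ≤ D.m0 χ := fun χ =>
    (Complex.re_le_norm _).trans (D.norm_le_m0 χ hy hc')
  have h3 := (sum_eq_sum_iff_of_le fun χ _ => ?_).mp h1 θ (mem_outBlk.mpr hθ)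
  · have h4 := D.deg_eq_m0 hK hθ
    have h5 : D.m0 θ ≠ 0 := fun h => (deg_pos θ).ne' (by rw [h4, h, mul_zero])
    rw [← Complex.ofReal_natCast, Complex.re_ofReal_mul, Nat.cast_pow, sq, mul_right_inj' (Nat.cast_ne_zero.mpr h5)] at h3
    have h6 := Complex.abs_im_le_norm (θ.1 y)
    have h7 := D.norm_le_m0 θ hy hc'
    have h8 := Complex.sq_norm (θ.1 y)
    rw [Complex.normSq_apply] at h8
    refine Complex.ext (by simpa using h3) ?_
    rw [Complex.natCast_im]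
    nlinarith [norm_nonneg (θ.1 y)]
  · rw [← Complex.ofReal_natCast, Complex.re_ofReal_mul, Nat.cast_pow, sq]
    exact mul_le_mul_of_nonneg_left (h2 χ) (Nat.cast_nonneg _)

theorem fixed_eq (hK : D.K = ⊥) (z : G) :
    ((fixedBy (Sylow p G) z).ncard : ℂ) = 1 + ∑ χ ∈ outBlk p G, D.m0 χ * χ.1 z := by
  classical
  have := Fintype.ofFinite G
  obtain ⟨a, ha1, ha2⟩ := IsCharacter.exists_eq_sum_nsmul
    (IsCharacter.indFun (H := stabilizer G D.P) isCharacter_one)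
  have h1 : a (irrOne G) = 1 := by
    have := ha1 (irrOne G)
    rw [classInner_indFun_left _ _ (irr_isClass _)] at this
    exact_mod_cast this.symm.trans (IsIrrCharacter.classInner_self isIrrCharacter_one)
  have h2 : ∀ θ ∈ outBlk p G, a θ = D.m0 θ := fun θ hθ => by
    have h2 := ha1 θ
    have h3 : ∑ i, (θ.1 (D.xp i) - D.m0 θ) = ∑ y : stabilizer G D.P, (θ.1 y - D.m0 θ) :=
      sum_of_injOn (fun i => ⟨D.xp i, Sylow.smul_eq_iff_mem_normalizer.mpr
        (le_normalizer (D.xp_mem i))⟩) (fun _ _ _ _ h => D.xp_injective (congrArg Subtype.val h))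
        (fun _ _ => mem_univ _) (fun y _ hy => sub_eq_zero.mpr (h.apply_eq_m0 hK
          (Sylow.smul_eq_iff_mem_normalizer.mp y.2) (fun h => hy (by
            obtain ⟨i, hi⟩ := D.exists_xp h
            exact ⟨i, mem_univ _, Subtype.ext hi⟩)) (mem_outBlk.mp hθ))) fun _ _ => rfl
    rw [sum_sub_distrib, D.sum_m0, sum_sub_distrib, sum_const, sum_const, card_univ, card_univ,
      ZMod.card, nsmul_eq_mul, sub_self, eq_comm, sub_eq_zero, nsmul_eq_mul,
      ← Nat.card_eq_fintype_card] at h3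
    rw [classInner_indFun_left _ _ (irr_isClass _), ← conj_classInner, classInner_one_right, h3,
      inv_mul_cancel_left₀ (natCard_ne_zero _), map_natCast] at h2
    exact_mod_cast h2.symm
  have h3 : ∀ g, ((fixedBy (Sylow p G) g).ncard : ℂ) =
      1 + ∑ χ ∈ (prinBlk p G).erase (irrOne G), a χ * χ.1 g +
        ∑ χ ∈ outBlk p G, D.m0 χ * χ.1 g := fun g => by
    rw [← indFun_one_eq_fixed D.P, ha2, Finset.sum_apply, ← sum_add_sum_outBlk p,
      ← add_sum_erase _ _ (irrOne_mem_prinBlk hp.out), h1,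
      sum_congr (s₁ := outBlk p G) rfl fun θ hθ => by rw [h2 θ hθ]]
    simp [irrOne_val]
  have h4 := h3 1
  rw [sum_congr (s₁ := outBlk p G) rfl fun θ hθ => by
      rw [deg_eq, D.deg_eq_m0 hK (mem_outBlk.mp hθ)],
    fixedBy_one_eq_univ, Set.ncard_univ, h.card, ← h.sum_m0_sq hK] at h4
  simp only [deg_eq] at h4
  have h5 : (∑ χ ∈ outBlk p G, D.m0 χ ^ 2) * p + 1 =
      1 + ∑ χ ∈ (prinBlk p G).erase (irrOne G), a χ * deg χ +
        ∑ χ ∈ outBlk p G, D.m0 χ * (p * D.m0 χ) := by exact_mod_cast h4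
  rw [sum_mul, sum_congr rfl fun χ _ => show D.m0 χ ^ 2 * p = D.m0 χ * (p * D.m0 χ) by ring] at h5
  have h6 : ∑ χ ∈ (prinBlk p G).erase (irrOne G), a χ * deg χ = 0 := by omega
  rw [h3, sum_eq_zero fun χ hχ => by
    rw [(mul_eq_zero.mp (sum_eq_zero_iff.mp h6 χ hχ)).resolve_right (deg_pos χ).ne',
      Nat.cast_zero, zero_mul], add_zero]

theorem ncard_fixed (hK : D.K = ⊥) {z : G} (hz1 : z ≠ 1) (hz : ¬ p ∣ orderOf z)
    (h1 : ∀ ψ ∈ B.S, B.δ ψ = -1 → ψ.1 z = 0) (h2 : B.δ0 = -1 → (B.c 1).1 z = 0) :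
    (fixedBy (Sylow p G) z).ncard = n + 1 := by
  have h3 := h.fixed_eq hK z
  rw [h.sum_compl hK hz1 hz h1 h2, add_comm] at h3
  exact_mod_cast h3

theorem ncard_fixed_of_mem (hK : D.K = ⊥) {y : G} (hy : y ∈ normalizer (zpowers D.x : Set G))
    (hc : y ∉ zpowers D.x) : (fixedBy (Sylow p G) y).ncard = n + 1 :=
  h.ncard_fixed hK (fun h => hc (by rw [h]; exact Subgroup.one_mem _)) (mt (D.mem_of_dvd_orderOf hK hy) hc)
    (h.vanish_S hy (D.centralizer_eq_iff.mpr hK ▸ hc))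
    (h.vanish_c hy (D.centralizer_eq_iff.mpr hK ▸ hc))

end Few

end Brauer

end Cfsg.Agent.H6
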