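import Cfsg.Agent.H6.FewB

/-!
# Brauer's theorem on groups with few Sylow subgroups of prime order
-/

set_option autoImplicit false

namespace Cfsg.Agent.H6

open Finset Subgroup Cfsg.Agent.L0 MulAction

variable {p : ℕ} {G : Type*} [Group G] [hp : Fact p.Prime] [Finite G]

namespace Setup

variable (D : Setup p G)

omit [Finite G] in
theorem smul_P_iff {g : G} : g • D.P = D.P ↔ g ∈ normalizer (zpowers D.x : Set G) :=
  Sylow.smul_eq_iff_mem_normalizer

omit [Finite G] in
theorem eq_one_of_mem {y : G} (hy : y ∈ zpowers D.x) (h : ¬ p ∣ orderOf y) : y = 1 := by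
  obtain ⟨i, rfl⟩ := D.exists_xp hy
  by_contra h1
  exact h (D.orderOf_xp (mt D.xp_eq_one.mpr h1)).symm.dvd

omit [Finite G] in
theorem not_dvd_card_A : ¬ p ∣ Nat.card D.A := fun h => by
  have := Nat.le_of_dvd (Nat.sub_pos_of_lt hp.out.one_lt) (h.trans D.card_A_dvd)
  have := hp.out.pos
  omega

/-- A cyclic complement to the Sylow subgroup in its normalizer. -/
structure Compl (y : G) : Prop where
  mem : y ∈ normalizer (zpowers D.x : Set G)
  ord : orderOf y = Nat.card D.A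
  gen : ∀ w ∈ normalizer (zpowers D.x : Set G), ∃ i, ∃ v ∈ zpowers y, w = D.xp i * v

theorem exists_compl (hK : D.K = ⊥) (he : Nat.card D.A ≠ 1) : ∃ y, D.Compl y := by
  obtain ⟨y, h1, h2, -⟩ := D.exists_nu
  have h3 : ∀ w ∈ normalizer (zpowers D.x : Set G), ∃ i, ∃ v ∈ zpowers y, w = D.xp i * v :=
    fun w hw => by
      obtain ⟨j, i, k, hk, rfl⟩ := h2 w (by simpa using D.mem_normalizer_iff_conj.mp (inv_mem hw))
      rw [hK, mem_bot] at hk
      obtain ⟨l, hl⟩ := D.exists_xp (H8.conj_mem_of_le_normalizer le_rfl (pow_mem h1 j)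
        (pow_mem (mem_zpowers D.x) i))
      exact ⟨l, y ^ j, pow_mem (mem_zpowers y) j, by rw [hl, hk]; group⟩
  have h4 := D.card_N
  rw [hK, card_bot, mul_one] at h4
  have h5 : y ∉ zpowers D.x := fun h => he (by
    have := card_le_of_le (show normalizer (zpowers D.x : Set G) ≤ zpowers D.x from fun w hw => by
      obtain ⟨i, v, hv, rfl⟩ := h3 w hw
      exact mul_mem (D.xp_mem i) (zpowers_le.mpr h hv))
    rw [h4, Nat.card_zpowers, D.hx] at this
    have h6 : 0 < Nat.card D.A := Nat.card_pos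
    nlinarith [hp.out.pos])
  refine ⟨y, h1, le_antisymm (Nat.le_of_dvd Nat.card_pos (Nat.Coprime.dvd_of_dvd_mul_right
    ((Nat.Prime.coprime_iff_not_dvd hp.out).mpr (mt (D.mem_of_dvd_orderOf hK h1) h5)).symm
    (h4 ▸ Subgroup.orderOf_dvd_natCard _ h1))) ?_, h3⟩
  have h6 := Nat.card_le_card_of_surjective (fun a : ZMod p × zpowers y =>
    (⟨D.xp a.1 * a.2, mul_mem (le_normalizer (D.xp_mem _)) (zpowers_le.mpr h1 a.2.2)⟩ :
      normalizer (zpowers D.x : Set G))) fun w => by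
    obtain ⟨i, v, hv, h⟩ := h3 w w.2
    exact ⟨(i, ⟨v, hv⟩), Subtype.ext h.symm⟩
  rw [h4, Nat.card_prod, Nat.card_zmod, Nat.card_zpowers, mul_comm] at h6
  exact Nat.le_of_mul_le_mul_left h6 hp.out.pos

namespace Compl

variable {D} {y : G} (h : D.Compl y) (hK : D.K = ⊥)
include h

omit [Finite G] in
theorem not_dvd {v : G} (hv : v ∈ zpowers y) : ¬ p ∣ orderOf v := fun h1 =>
  D.not_dvd_card_A (h1.trans (h.ord ▸ orderOf_dvd_of_mem_zpowers hv))

omit hp [Finite G] in
theorem le : zpowers y ≤ normalizer (zpowers D.x : Set G) := zpowers_le.mpr h.mem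

include hK

theorem exists_conj {z : G} {R : Sylow p G} (hR : z • R = R) (hz : ¬ p ∣ orderOf z) :
    ∃ k : G, k • D.P = R ∧ k⁻¹ * z * k ∈ zpowers y := by
  obtain ⟨g, rfl⟩ := exists_smul_eq G D.P R
  obtain ⟨i, v, hv, h1⟩ := h.gen (g⁻¹ * z * g) (D.smul_P_iff.mp (by
    rw [mul_smul, mul_smul, hR, inv_smul_smul]))
  by_cases h2 : v ∈ centralizer ({D.x} : Set G)
  · rw [D.centralizer_eq_iff.mpr hK] at h2
    refine ⟨g, rfl, ?_⟩
    rw [D.eq_one_of_mem (h1 ▸ mul_mem (D.xp_mem i) h2 : g⁻¹ * z * g ∈ _)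
      (by rwa [← orderOf_eq_of_isConj (isConj_iff.mpr ⟨g⁻¹, by rw [inv_inv]⟩)])]
    exact one_mem _
  · obtain ⟨j, hj⟩ := D.exists_conj_mul (h.le hv) h2 i
    refine ⟨g * D.xp j, by rw [mul_smul, D.smul_P_iff.mpr (le_normalizer (D.xp_mem j))], ?_⟩
    rwa [show (g * D.xp j)⁻¹ * z * (g * D.xp j) = (D.xp j)⁻¹ * (g⁻¹ * z * g) * D.xp j by group, h1,
      ← hj, show (D.xp j)⁻¹ * (D.xp j * v * (D.xp j)⁻¹) * D.xp j = v by group]

theorem mem_of_mem (hy : y ≠ 1) {w : G} (h1 : w ∈ normalizer (zpowers y : Set G))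
    (h2 : w • D.P = D.P) : w ∈ zpowers y := by
  obtain ⟨i, v, hv, rfl⟩ := h.gen w (D.smul_P_iff.mp h2)
  have h3 : D.xp i ∈ normalizer (zpowers y : Set G) := by
    simpa using mul_mem h1 (inv_mem (le_normalizer hv))
  have h4 := mul_mem (H8.conj_mem_of_le_normalizer le_rfl h3 (mem_zpowers y))
    (inv_mem (mem_zpowers y))
  have h5 := D.eq_one_of_mem (by
    simpa only [mul_assoc] using mul_mem (D.xp_mem i)
      (H8.conj_mem_of_le_normalizer le_rfl h.mem (inv_mem (D.xp_mem i)))) (h.not_dvd h4)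
  by_cases hi : i = 0
  · rwa [hi, xp_zero, one_mul]
  · refine absurd (D.eq_one_of_mem ?_ (h.not_dvd (mem_zpowers y))) hy
    rw [← D.centralizer_eq_iff.mpr hK, ← D.centralizer_xp hi, mem_centralizer_singleton_iff]
    rw [mul_inv_eq_one, mul_inv_eq_iff_eq_mul] at h5
    exact h5.symm

theorem card_normalizer (hy : y ≠ 1) : Nat.card (normalizer (zpowers y : Set G)) =
    (fixedBy (Sylow p G) y).ncard * Nat.card D.A := by
  rw [← ncard_orbit_mul_card_stabilizer (G := normalizer (zpowers y : Set G)) D.P]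
  congr 2
  · ext R
    constructor
    · rintro ⟨g, rfl⟩
      have h1 := D.smul_P_iff.mpr (h.le (H8.conj_mem_of_le_normalizer le_rfl (inv_mem g.2)
        (mem_zpowers y)))
      change y • (g : G) • D.P = (g : G) • D.P
      rwa [inv_inv, mul_smul, mul_smul, inv_smul_eq_iff] at h1
    · intro hR
      obtain ⟨k, rfl, h1⟩ := h.exists_conj hK hR (h.not_dvd (mem_zpowers y))
      refine ⟨⟨k, inv_mem_iff.mp (mem_normalizer_fintype ?_)⟩, rfl⟩
      rintro _ ⟨m, rfl⟩
      have := zpow_mem h1 m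
      rwa [← inv_inv k, inv_inv k⁻¹, conj_zpow] at this
  · have : stabilizer (normalizer (zpowers y : Set G)) D.P = (zpowers y).subgroupOf _ :=
      Subgroup.ext fun g =>
        ⟨fun h1 => h.mem_of_mem hK hy g.2 h1, fun h1 => D.smul_P_iff.mpr (h.le h1)⟩
    rw [this, ← h.ord, ← Nat.card_zpowers, Nat.card_congr (subgroupOfEquivOfLe le_normalizer).toEquiv]

end Compl

end Setup

omit hp in
theorem eq_or_eq_of_mem_zpowers {y v : G} (hy : orderOf y = 2) (hv : v ∈ zpowers y) :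
    v = 1 ∨ v = y := by
  classical
  rw [mem_zpowers_iff_mem_range_orderOf, hy] at hv
  obtain ⟨k, hk, rfl⟩ := mem_image.mp hv
  rw [mem_range] at hk
  interval_cases k <;> simp

namespace Brauer.Few

variable {D : Setup p G} {B : Brauer D} {n : ℕ} (h : B.Few n)
include h

theorem main.{v} (hG : commutator G = ⊤) (hK : D.K = ⊥) : 3 < p ∧
    ((Nat.card (Sylow p G) = p + 1 ∧ 2 * Nat.card D.A = p - 1) ∨
      ∃ m, p = 2 ^ m + 1 ∧ Nat.card G = p * ((p - 1) * (p - 2)) ∧
        ∀ (F : Type v) [Field F] [Fintype F], Fintype.card F = 2 ^ m →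
          Nonempty (G ≃* Matrix.ProjectiveSpecialLinearGroup (Fin 2) F)) := by
  have he := B.two_le_card_A hG
  have hn : n ≠ 0 := fun h1 => D.card_sylow_ne_one hG hK (by rw [h.card, h1, zero_mul])
  obtain ⟨y, hy⟩ := D.exists_compl hK (by omega)
  have hy1 : y ≠ 1 := fun h1 => by
    have := hy.ord
    rw [h1, orderOf_one] at this
    omega
  have hH := hy.card_normalizer hK hy1
  rw [h.ncard_fixed_of_mem hK hy.mem fun h1 =>
    hy1 (D.eq_one_of_mem h1 (hy.not_dvd (mem_zpowers y)))] at hH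
  have hg := D.card_G
  rw [h.card, hK, card_bot, mul_one] at hg
  have het := D.card_A_mul_index
  have hp1 := hp.out.one_lt
  have het' : Nat.card D.A * D.A.index + 1 = p := by omega
  have hn0 := Nat.pos_of_ne_zero hn
  have ht0 : 0 < D.A.index := Nat.pos_of_ne_zero index_ne_zero_of_finite
  have h1 : n + 1 < p → n + 1 ∣ Nat.card D.A * D.A.index := fun h1 => by
    have h2 := (normalizer (zpowers y : Set G)).card_subgroup_dvd_card
    rw [hH, hg, mul_comm (Nat.card D.A), ← mul_assoc, Nat.mul_dvd_mul_iff_right (by omega)] at h2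
    have h3 := (Nat.coprime_of_lt_prime (by omega) h1 hp.out).symm.dvd_of_dvd_mul_right h2
    rw [het]
    exact (Nat.dvd_add_right h3).mp ⟨p, by rw [add_mul]; omega⟩
  obtain ⟨a, ⟨h2, h3⟩ | ⟨h2, k, h3, h4⟩⟩ := h.numbers
  · have h4 : 0 < a := Nat.pos_of_ne_zero (by rintro rfl; omega)
    have h5 := Nat.Coprime.dvd_of_dvd_mul_left (by rw [h3]; simp) (h1 (by nlinarith))
    have h6 := Nat.le_of_dvd ht0 h5
    have h7 := (B.small_exceptional hG hK h2 (h.c.resolve_left (by omega)).2).1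
    have h8 : D.A.index ≤ 2 := by nlinarith
    have h9 : D.A.index = 2 := by omega
    obtain rfl : n = 1 := by omega
    rw [h9] at het
    exact ⟨by omega, Or.inl ⟨by rw [h.card, one_mul], by omega⟩⟩
  obtain rfl : k = 1 := by
    have h5 := h1 (by
      have := Nat.mul_le_mul_left D.A.index (show k + 1 ≤ Nat.card D.A by omega)
      nlinarith)
    rw [h3, mul_comm (Nat.card D.A), Nat.mul_dvd_mul_iff_left ht0, h4, h3] at h5
    exact Nat.dvd_one.mp ((Nat.dvd_add_right (dvd_add (Dvd.intro_left _ (mul_assoc _ _ _))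
      dvd_rfl)).mp h5)
  rw [mul_one] at h3
  rw [← h3] at het het'
  refine ⟨by nlinarith, ?_⟩
  rcases eq_or_ne n 1 with rfl | hn1
  · exact Or.inl ⟨by rw [h.card, one_mul], by omega⟩
  right
  have hf : B.f0 = n * Nat.card D.A + 1 := Nat.eq_of_mul_eq_mul_left ht0 (by
    rw [(h.c.resolve_right (by omega)).2, ← h3]
    linear_combination n * het'.symm)
  have hg' : Nat.card G = (p - 1) * ((n * Nat.card D.A + 1) * p) := by
    rw [hg, ← (h.c.resolve_right (by omega)).2, ← h3, hf, ← het]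
    ring
  set H := normalizer (zpowers y : Set G)
  have hord : ∀ z ∈ H, orderOf z ∣ p - 1 := fun z hz => by
    rw [← het, mul_comm, ← hH]
    exact Subgroup.orderOf_dvd_natCard _ hz
  have hnd : ∀ z ∈ H, ¬ p ∣ orderOf z := fun z hz h5 => by
    have := Nat.le_of_dvd (by omega) (h5.trans (hord z hz))
    omega
  have hfix : ∀ z ∈ H, z ≠ 1 → (fixedBy (Sylow p G) z).ncard = n + 1 := fun z hz hz1 => by
    obtain ⟨r, hr, h5⟩ := Nat.exists_prime_and_dvd (mt orderOf_eq_one_iff.mp hz1)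
    refine h.ncard_fixed hK hz1 (hnd z hz) (fun ψ hψ h6 => eq_zero_of_defect_zero hr ?_ h5)
      (by omega)
    have h7 := h5.trans (hord z hz)
    rw [((h.S ψ hψ (by rintro rfl; rw [B.δ_one] at h6; omega)).resolve_left (by omega)).2, hg',
      Nat.mul_div_cancel_left _ (by omega), hr.dvd_mul]
    rintro (h8 | h8)
    · have h9 : r ∣ a * (n + 1) + 1 := by
        refine (Nat.dvd_add_right h8).mp (h7.trans (dvd_of_eq ?_))
        rw [← het, h4]
        ring
      rw [← het, hr.dvd_mul] at h7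
      rcases h7 with h7 | h7
      · exact hr.not_dvd_one ((Nat.dvd_add_right (h7.mul_left n)).mp h8)
      · exact hr.not_dvd_one ((Nat.dvd_add_right (h7.mul_left a)).mp h9)
    · rw [(Nat.prime_dvd_prime_iff_eq hr hp.out).mp h8] at h5
      exact hnd z hz h5
  have hconj : ∀ z ∈ H, z ≠ 1 → ∃ k : G, k⁻¹ * z * k ∈ zpowers y := fun z hz hz1 => by
    obtain ⟨R, hR⟩ := Set.nonempty_of_ncard_ne_zero (s := fixedBy (Sylow p G) z)
      (by rw [hfix z hz hz1]; omega)
    obtain ⟨k, -, hk⟩ := hy.exists_conj hK hR (hnd z hz)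
    exact ⟨k, hk⟩
  have hsq : ∀ z ∈ H, z ∉ zpowers y → z * z = 1 := fun z hz hz1 => by
    have hz2 : z ≠ 1 := fun h => hz1 (h ▸ Subgroup.one_mem _)
    obtain ⟨k, hk⟩ := hconj z hz hz2
    have h5 := orderOf_dvd_of_mem_zpowers hk
    rw [← orderOf_eq_of_isConj (isConj_iff.mpr ⟨k⁻¹, by rw [inv_inv]⟩), hy.ord,
      orderOf_dvd_iff_pow_eq_one] at h5
    have : ((zpowers y).subgroupOf H).Normal := normal_in_normalizer
    have h6 : z ^ (zpowers y).relIndex H ∈ zpowers y :=
      ((zpowers y).subgroupOf H).pow_index_mem ⟨z, hz⟩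
    have h7 := relIndex_mul_card_of_le (le_normalizer : zpowers y ≤ H)
    rw [hH, Nat.card_zpowers, hy.ord] at h7
    rw [Nat.eq_of_mul_eq_mul_right (by omega) h7] at h6
    have h8 : z ^ (n + 1) = 1 := by
      by_contra h8
      have h9 : fixedBy (Sylow p G) z = fixedBy (Sylow p G) (z ^ (n + 1)) :=
        Set.eq_of_subset_of_ncard_le (zpow_natCast z _ ▸ fixedBy_subset_fixedBy_zpow _ z _)
          (by rw [hfix z hz hz2, hfix _ (pow_mem hz _) h8])
      exact hz1 (hy.mem_of_mem hK hy1 hz (h9 ▸ D.smul_P_iff.mpr (hy.le h6) :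
        D.P ∈ fixedBy (Sylow p G) z))
    rwa [h4, add_assoc, pow_add, pow_mul', h8, one_pow, one_mul, pow_add, pow_one] at h5
  have hinv : ∀ z ∈ H, z ∉ zpowers y → z * y * z⁻¹ = y⁻¹ := fun z hz hz1 => by
    have h5 := hsq _ (mul_mem hz (le_normalizer (mem_zpowers y)))
      (by rwa [mul_mem_cancel_right (mem_zpowers y)])
    rw [inv_eq_of_mul_eq_one_left (hsq z hz hz1), eq_inv_iff_mul_eq_one, mul_assoc, h5]
  have he2 : Nat.card D.A = 2 := by
    obtain ⟨z, hz, hz1⟩ := Set.exists_mem_notMem_of_ncard_lt_ncard (s := (zpowers y : Set G))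
      (t := H) (by rw [ncard_subgroup, ncard_subgroup, hH, Nat.card_zpowers, hy.ord]; nlinarith)
    obtain ⟨w, hw, hw1⟩ := Set.exists_mem_notMem_of_ncard_lt_ncard
      (s := (zpowers y : Set G) ∪ (fun v => z⁻¹ * v) '' zpowers y) (t := H) (by
        refine (Set.ncard_union_le _ _).trans_lt ?_
        rw [Set.ncard_image_of_injective _ (mul_right_injective _), ncard_subgroup,
          ncard_subgroup, hH, Nat.card_zpowers, hy.ord]
        have : 2 ≤ n := by omega
        nlinarith)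
    have h5 := hinv _ (mul_mem hz hw) fun h => hw1 (Or.inr ⟨_, h, inv_mul_cancel_left _ _⟩)
    rw [show z * w * y * (z * w)⁻¹ = z * (w * y * w⁻¹) * z⁻¹ by group,
      hinv w hw fun h => hw1 (Or.inl h), ← conj_inv, hinv z hz hz1, inv_inv,
      eq_inv_iff_mul_eq_one, ← sq, ← orderOf_dvd_iff_pow_eq_one, hy.ord] at h5
    exact le_antisymm (Nat.le_of_dvd two_pos h5) he
  have hy2 := hy.ord.trans he2
  rw [he2] at het'
  have := Fintype.ofFinite G
  have hC : centralizer ({y} : Set G) = H := le_antisymm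
    (centralizer_zpowers_eq y ▸ centralizer_le_normalizer _) fun z hz =>
      mem_centralizer_singleton_iff.mpr (mul_inv_eq_iff_eq_mul.mp ((eq_or_eq_of_mem_zpowers hy2
        (H8.conj_mem_of_le_normalizer le_rfl hz (mem_zpowers y))).resolve_left
          (mt conj_eq_one_iff.mp hy1)))
  have hyy : y * y = 1 := by rw [← sq, ← hy2, pow_orderOf_eq_one]
  have hc : ∀ z, z * y = y * z → z ≠ 1 → IsConj y z := fun z hz hz1 => by
    obtain ⟨k, hk⟩ := hconj z (hC ▸ mem_centralizer_singleton_iff.mpr hz) hz1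
    refine isConj_iff.mpr ⟨k, ?_⟩
    rcases eq_or_eq_of_mem_zpowers hy2 hk with h5 | h5
    · exact absurd (by rwa [← inv_inv k, inv_inv k⁻¹, conj_eq_one_iff] at h5) hz1
    · rw [← h5]; group
  obtain ⟨m, hm⟩ := exists_card_cent_eq hyy hc
  have h5 : p = 2 ^ m + 1 := by rw [← hm, hC, hH, he2]; omega
  have h6 : Nat.card G = p * ((p - 1) * (p - 2)) := by
    rw [hg', he2, show p - 2 = n * 2 + 1 by omega]
    ring
  exact ⟨m, h5, h6, fun F _ _ hF => psl_even hyy hc hF (by rw [h6, h5]; rfl) hy1 hm⟩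

end Brauer.Few

end Cfsg.Agent.H6
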