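import Cfsg.Agent.H6.FewC

/-!
# Brauer's theorem on groups with few Sylow subgroups of prime order: final forms
-/

set_option autoImplicit false

namespace Cfsg.Agent.H6

open Finset Subgroup Cfsg.Agent.L0 MulAction

variable {p : ℕ} {G : Type*} [Group G] [hp : Fact p.Prime] [Finite G]

theorem not_sq_dvd_of_centralizer {z : G} (hz : orderOf z = p)
    (hC : centralizer ({z} : Set G) = zpowers z) : ¬ p ^ 2 ∣ Nat.card G := by
  have hz1 : z ≠ 1 := by rintro rfl; rw [orderOf_one] at hz; exact hp.out.ne_one hz.symm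
  obtain ⟨P, hzP⟩ := exists_sylow_mem (p := p) (x := z)
    ⟨1, by rw [pow_one, ← hz, pow_orderOf_eq_one]⟩
  have hcz : Nat.card (zpowers z) = p := by rw [Nat.card_zpowers, hz]
  have hPz : (P : Subgroup G) = zpowers z := by
    refine le_antisymm ?_ (zpowers_le.mpr hzP)
    have : Nontrivial (P : Subgroup G) := ⟨⟨z, hzP⟩, 1, fun h => hz1 (congrArg Subtype.val h)⟩
    have := P.2.center_nontrivial
    obtain ⟨⟨⟨w, hwP⟩, hw⟩, hw1⟩ := exists_ne (1 : center (P : Subgroup G))
    have hw1' : w ≠ 1 := fun h => hw1 (Subtype.ext (Subtype.ext h))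
    have hc : ∀ g ∈ (P : Subgroup G), g * w = w * g := fun g hg =>
      congrArg Subtype.val (mem_center_iff.mp hw ⟨g, hg⟩)
    have hwz : w ∈ zpowers z := by
      rw [← hC, mem_centralizer_singleton_iff]; exact (hc z hzP).symm
    rw [← hC, ← H8.centralizer_zpowers, eq_zpowers_of_card_prime hcz hwz hw1',
      H8.centralizer_zpowers]
    exact fun g hg => mem_centralizer_singleton_iff.mpr (hc g hg)
  rw [← (P : Subgroup G).card_mul_index, hPz, hcz, sq, Nat.mul_dvd_mul_iff_left hp.out.pos, ← hPz]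
  exact P.not_dvd_index

omit [Finite G] hp in
theorem not_isMulCommutative_of_not_isCyclic [Finite G] [IsSimpleGroup G] (hG : ¬ IsCyclic G) :
    ¬ IsMulCommutative G := not_isMulCommutative_of_card fun h =>
  have := Fact.mk h
  hG (isCyclic_of_prime_card rfl)

namespace Brauer

variable {D : Setup p G} (B : Brauer D)

theorem few_of_K (hG : commutator G = ⊤) (hK : D.K = ⊥) {n : ℕ}
    (hn : Nat.card (Sylow p G) = n * p + 1) (hn2 : 2 * n < p + 3) : B.Few n := by
  refine B.few hG hn hn2 ?_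
  have h1 : n ≠ 0 := fun h1 => D.card_sylow_ne_one hG hK (by rw [hn, h1, zero_mul])
  obtain ⟨n, rfl⟩ := Nat.exists_eq_succ_of_ne_zero h1
  rw [D.card_G, hn, hK, card_bot, mul_one]
  obtain ⟨q, hq⟩ := Nat.exists_eq_add_of_lt hp.out.one_lt
  have h2 : p < (p - 1) * ((n + 1) * p + 1) := by
    rw [show p - 1 = q + 1 by omega]
    nlinarith
  have h3 : 0 < ((n + 1) * p + 1) * Nat.card D.A := Nat.mul_pos (by omega) Nat.card_pos
  have := Nat.mul_lt_mul_of_pos_left h2 h3
  rw [Nat.succ_eq_add_one]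
  nlinarith

theorem Few.result {B : Brauer D} {n : ℕ} (h : B.Few n) (hG : commutator G = ⊤) (hK : D.K = ⊥) :
    (∃ (F : Type) (_ : Field F) (_ : Fintype F), Fintype.card F = p ∧ 3 < p ∧
      Nonempty (G ≃* Matrix.ProjectiveSpecialLinearGroup (Fin 2) F)) ∨
    (∃ (m : ℕ) (F : Type) (_ : Field F) (_ : Fintype F), Fintype.card F = 2 ^ m ∧ p = 2 ^ m + 1 ∧
      3 < p ∧ Nonempty (G ≃* Matrix.ProjectiveSpecialLinearGroup (Fin 2) F)) := by
  obtain ⟨h1, ⟨h2, h3⟩ | ⟨m, h2, -, h3⟩⟩ := h.main hG hK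
  · exact Or.inl ⟨ZMod p, inferInstance, inferInstance, ZMod.card p, h1,
      D.psl_of_card_sylow hG hK h2 h3 (ZMod.card p)⟩
  · have := Fintype.ofFinite (GaloisField 2 m)
    have h4 : Fintype.card (GaloisField 2 m) = 2 ^ m := by
      rw [← Nat.card_eq_fintype_card, GaloisField.card 2 m (by rintro rfl; omega)]
    exact Or.inr ⟨m, GaloisField 2 m, inferInstance, this, h4, h2, h1, h3 _ h4⟩

end Brauer

theorem exists_few_of_lt [IsSimpleGroup G] (hG : ¬ IsMulCommutative G) (h1 : p ∣ Nat.card G)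
    (h2 : Nat.card G < p ^ 3) : ∃ (D : Setup p G) (B : Brauer D) (n : ℕ), B.Few n ∧ D.K = ⊥ := by
  have h3 := card_sylow_ne_one hG h1
  have hperf := perfect_of_simple hG
  obtain ⟨D⟩ := nonempty_setup h1 fun h => by
    obtain ⟨P⟩ := (inferInstance : Nonempty (Sylow p G))
    have h4 := card_sylow_mul_card_normalizer P
    have h5 := Nat.le_of_dvd Nat.card_pos ((P.pow_dvd_card_of_pow_dvd_card h).trans
      (card_dvd_of_le le_normalizer))
    have h6 : 0 < Nat.card (Sylow p G) := Nat.card_pos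
    have h7 := Nat.le_of_dvd (by omega)
      ((Nat.modEq_iff_dvd' h6).mp (card_sylow_modEq_one p G).symm)
    have h8 := Nat.mul_le_mul (show p ≤ Nat.card (Sylow p G) by omega) h5
    nlinarith
  obtain ⟨B⟩ := D.nonempty_brauer
  obtain ⟨n, hn⟩ := Setup.exists_card_sylow (p := p) (G := G)
  have he := B.two_le_card_A hperf
  have hk : 0 < Nat.card D.K := Nat.card_pos
  have hn0 : 0 < n := Nat.pos_of_ne_zero fun h => h3 (by rw [hn, h, zero_mul])
  have hp2 := hp.out.two_le
  have h4 : B.Few n := by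
    refine B.few hperf hn ?_ (h2.trans_le ?_)
    · rw [D.card_G, hn] at h2
      have h4 := Nat.mul_le_mul_left (n * p + 1) (Nat.mul_le_mul he (Nat.mul_le_mul_left p hk))
      by_contra h5
      have h6 := Nat.mul_le_mul_left (p ^ 2) (not_lt.mp h5)
      nlinarith
    · obtain ⟨q, hq⟩ := Nat.exists_eq_add_of_lt hp.out.one_lt
      have h4 : p + 1 ≤ n * p + 1 := by nlinarith
      refine le_trans ?_ (Nat.mul_le_mul_left _ (Nat.mul_le_mul he (Nat.pow_le_pow_left h4 2)))
      rw [show p - 1 = q + 1 by omega, hq]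
      nlinarith [Nat.zero_le (q ^ 3), Nat.zero_le (q ^ 2)]
  exact ⟨D, B, n, h4, h4.K_eq_bot hperf⟩

end Cfsg.Agent.H6
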